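import Groth.Prelude.Def_SGA1t

/-!
# Affine charts for strict relative normal crossings divisors
-/

set_option autoImplicit false
universe u

open CategoryTheory CategoryTheory.Limits AlgebraicGeometry

namespace Groth.Agent.Pi1.H404.Chart

open scoped AlgebraicGeometry

theorem homOfVector_comp_map {n : Type u} {X S T : Scheme.{u}} (g : X ⟶ S) (i : S ⟶ T)
    (v : n → Γ(X, ⊤)) :
    AffineSpace.homOfVector g v ≫ AffineSpace.map n i = AffineSpace.homOfVector (g ≫ i) v := by
  rw [AffineSpace.map, AffineSpace.comp_homOfVector]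
  congr 1
  · rw [← Category.assoc]
    congr 1
    exact AffineSpace.homOfVector_over _ _
  · funext k
    exact AffineSpace.homOfVector_appTop_coord _ _ _

instance isOpenImmersion_map {n : Type u} {S T : Scheme.{u}} (i : S ⟶ T) [IsOpenImmersion i] :
    IsOpenImmersion (AffineSpace.map n i) :=
  MorphismProperty.of_isPullback (AffineSpace.isPullback_map i).flip ‹_›

/-- The ring map of an affine point of affine space. -/
theorem exists_ringHom {n : Type u} {A B : CommRingCat.{u}} (g : Spec B ⟶ Spec A)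
    (v : n → Γ(Spec B, ⊤)) :
    ∃ ψ : CommRingCat.of (MvPolynomial n A) ⟶ B,
      AffineSpace.homOfVector g v ≫ (AffineSpace.SpecIso n A).hom = Spec.map ψ ∧
      g = Spec.map (CommRingCat.ofHom MvPolynomial.C ≫ ψ) ∧
      ∀ k, ψ (MvPolynomial.X k) = (Scheme.ΓSpecIso B).hom (v k) := by
  obtain ⟨ψ, hψ⟩ := Spec.map_surjective
    (AffineSpace.homOfVector g v ≫ (AffineSpace.SpecIso n A).hom)
  refine ⟨ψ, hψ.symm, ?_, fun k => ?_⟩
  · rw [Spec.map_comp, hψ, ← AffineSpace.SpecIso_inv_over, Category.assoc, Iso.hom_inv_id_assoc]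
    exact (AffineSpace.homOfVector_over _ _).symm
  · have h1 : Spec.map ψ ≫ (AffineSpace.SpecIso n A).inv = AffineSpace.homOfVector g v := by
      rw [hψ, Category.assoc, Iso.hom_inv_id, Category.comp_id]
    have h2 := AffineSpace.homOfVector_appTop_coord g v k
    rw [← h1, Scheme.Hom.comp_appTop, CommRingCat.comp_apply,
      AffineSpace.SpecIso_inv_appTop_coord] at h2
    rw [← h2, ← CommRingCat.comp_apply, Scheme.ΓSpecIso_naturality, CommRingCat.comp_apply]
    congr 1
    rw [← CommRingCat.comp_apply, Iso.inv_hom_id]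
    rfl

variable {X S : Scheme.{u}} {f : X ⟶ S} {r : ℕ} {φ : Fin r → Γ(X, ⊤)}

instance finite_vanishingAt (x : X) : Finite (SGA1t.vanishingAt φ x) := by
  unfold SGA1t.vanishingAt
  infer_instance

theorem mem_basicOpen_prod (s : Finset (Fin r)) (x : X) :
    x ∈ X.basicOpen (∏ i ∈ s, φ i) ↔ ∀ i ∈ s, x ∈ X.basicOpen (φ i) := by
  classical
  induction s using Finset.induction_on with
  | empty => simp [Scheme.mem_basicOpen]
  | insert a s ha ih =>
    rw [Finset.prod_insert ha, Scheme.basicOpen_mul, TopologicalSpace.Opens.mem_inf, ih]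
    simp

theorem mem_compl_iff (x : X) : x ∈ SGA1t.compl φ ↔ ∀ i, x ∈ X.basicOpen (φ i) := by
  rw [SGA1t.compl, mem_basicOpen_prod]
  simp

theorem ι_appTop_eq (W : X.Opens) : W.ι.appTop = X.presheaf.map (homOfLE le_top).op ≫ W.topIso.inv := by
  rw [Scheme.Opens.ι_appTop, Scheme.Opens.topIso_inv]
  exact (X.presheaf.map_comp (homOfLE (le_top : W ≤ ⊤)).op (eqToHom W.ι_image_top).op).symm ▸ rfl

theorem ι_appTop_apply (W : X.Opens) (a : Γ(X, ⊤)) :
    W.topIso.inv (X.presheaf.map (homOfLE le_top).op a) = W.ι.appTop a := by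
  rw [ι_appTop_eq]
  rfl

/-- Affine étale charts around a point of a strict relative normal crossings divisor. -/
theorem exists_chart (hD : SGA1t.IsRelSNC f φ) (x : X) (hx : Nonempty (SGA1t.vanishingAt φ x)) :
    ∃ (A B : CommRingCat.{u}) (i : Spec A ⟶ S) (j : Spec B ⟶ X) (d : ℕ)
      (ψ : CommRingCat.of (MvPolynomial (ULift.{u} (Fin d)) A) ⟶ B)
      (e : SGA1t.vanishingAt φ x → Fin d),
      IsOpenImmersion i ∧ IsOpenImmersion j ∧ x ∈ Set.range j ∧ Function.Injective e ∧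
      ψ.hom.Etale ∧ j ≫ f = Spec.map (CommRingCat.ofHom MvPolynomial.C ≫ ψ) ≫ i ∧
      (∀ k : SGA1t.vanishingAt φ x,
        (Scheme.ΓSpecIso B).hom (j.appTop (φ k.1)) = ψ (MvPolynomial.X (ULift.up (e k)))) ∧
      ∀ k : Fin r, x ∈ X.basicOpen (φ k) → IsUnit ((Scheme.ΓSpecIso B).hom (j.appTop (φ k))) := by
  obtain ⟨W, hxW, d, v, e, he, het, hv⟩ := hD x hx
  obtain ⟨A, i, hi, hxi, -⟩ := Scheme.exists_affine_mem_range_and_range_subset
    (U := (⊤ : S.Opens)) (x := f x) trivial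
  classical
  let W₁ : X.Opens := (W ⊓ f ⁻¹ᵁ i.opensRange) ⊓
    X.basicOpen (∏ k ∈ {k : Fin r | x ∈ X.basicOpen (φ k)}, φ k)
  have hxW₁ : x ∈ W₁ := by
    refine ⟨⟨hxW, hxi⟩, ?_⟩
    rw [SetLike.mem_coe, mem_basicOpen_prod]
    intro k hk
    simpa using hk
  obtain ⟨B, j, hj, hxj, hjW⟩ := Scheme.exists_affine_mem_range_and_range_subset hxW₁
  have hjW' : ∀ y, j y ∈ W := fun y => (hjW ⟨y, rfl⟩).1.1
  have hji : ∀ y, (j ≫ f) y ∈ i.opensRange := fun y => (hjW ⟨y, rfl⟩).1.2
  have hjk : ∀ k : Fin r, x ∈ X.basicOpen (φ k) → ∀ y, j y ∈ X.basicOpen (φ k) := by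
    intro k hk y
    have h1 := (hjW ⟨y, rfl⟩).2
    rw [SetLike.mem_coe, mem_basicOpen_prod] at h1
    exact h1 k (by simpa using hk)
  let j' : Spec B ⟶ W := IsOpenImmersion.lift W.ι j (by
    rw [Scheme.Opens.range_ι]
    rintro _ ⟨y, rfl⟩
    exact hjW' y)
  have hj' : j' ≫ W.ι = j := IsOpenImmersion.lift_fac _ _ _
  let g : Spec B ⟶ Spec A := IsOpenImmersion.lift i (j ≫ f) (by
    rintro _ ⟨y, rfl⟩
    exact hji y)
  have hg : g ≫ i = j ≫ f := IsOpenImmersion.lift_fac _ _ _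
  have hj'i : IsOpenImmersion j' := by
    have : IsOpenImmersion (j' ≫ W.ι) := by rw [hj']; exact hj
    exact IsOpenImmersion.of_comp j' W.ι
  have h1 : j' ≫ AffineSpace.homOfVector (W.ι ≫ f) v =
      AffineSpace.homOfVector g (j'.appTop ∘ v) ≫ AffineSpace.map _ i := by
    rw [AffineSpace.comp_homOfVector, homOfVector_comp_map, hg, ← Category.assoc, hj']
  have h2 : Etale (AffineSpace.homOfVector g (j'.appTop ∘ v)) := by
    have : Etale (AffineSpace.homOfVector g (j'.appTop ∘ v) ≫ AffineSpace.map _ i) := by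
      rw [← h1]
      infer_instance
    exact Etale.of_comp _ (AffineSpace.map _ i)
  obtain ⟨ψ, hψ1, hψ2, hψ3⟩ := exists_ringHom g (j'.appTop ∘ v)
  refine ⟨A, B, i, j, d, ψ, e, hi, hj, hxj, he, ?_, ?_, ?_, ?_⟩
  · have : Etale (Spec.map ψ) := by
      rw [← hψ1]
      infer_instance
    exact (HasRingHomProperty.Spec_iff (P := @Etale)).1 this
  · rw [← hψ2, hg]
  · intro k
    rw [hψ3, Function.comp_apply, hv k, ← hj', Scheme.Hom.comp_appTop, CommRingCat.comp_apply]
    congr 2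
    exact (ι_appTop_apply W _).symm
  · intro k hk
    have h3 : (Spec B).basicOpen (j.appTop (φ k)) = ⊤ := by
      rw [← Scheme.preimage_basicOpen_top]
      ext y
      exact ⟨fun _ => trivial, fun _ => hjk k hk y⟩
    rw [basicOpen_eq_of_affine'] at h3
    by_contra hcon
    obtain ⟨m, hm, hm'⟩ := exists_max_ideal_of_mem_nonunits hcon
    have h4 : (⟨m, hm.isPrime⟩ : PrimeSpectrum B) ∈ PrimeSpectrum.basicOpen
        ((Scheme.ΓSpecIso B).hom (j.appTop (φ k))) := by
      rw [h3]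
      trivial
    exact h4 hm'

end Groth.Agent.Pi1.H404.Chart
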