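import Mathlib.Topology.LocallyConstant.Basic
import Mathlib.Topology.Clopen

/-!
# Extending locally constant functions from a dense open subset
-/

set_option autoImplicit false

namespace Groth.Agent.Pi1.H404.TopExt

/-- Around `x` there is an open set `W` in which `D` is dense, and such that clopen subsets of
`W ∩ D` extend to clopen subsets of `W`. -/
def ExtAt {X : Type*} [TopologicalSpace X] (D : Set X) (x : X) : Prop :=
  ∃ W : Set X, IsOpen W ∧ x ∈ W ∧ (∀ O : Set X, IsOpen O → O ⊆ W → O.Nonempty → (O ∩ D).Nonempty) ∧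
    ∀ Z : Set X, Z ⊆ W ∩ D → IsOpen Z → IsOpen ((W ∩ D) \ Z) →
      ∃ Z' : Set X, Z' ⊆ W ∧ IsOpen Z' ∧ IsOpen (W \ Z') ∧ Z' ∩ D = Z

variable {E X : Type*} [TopologicalSpace E] [TopologicalSpace X] {A : Type*}

/-- At every point of `D` the extension property holds if `D` is open. -/
theorem ExtAt.of_mem {D : Set X} (hD : IsOpen D) {x : X} (hx : x ∈ D) : ExtAt D x := by
  refine ⟨D, hD, hx, fun O _ hO hne => ?_, fun Z hZ h1 h2 => ⟨Z, hZ.trans Set.inter_subset_left, h1,
    ?_, Set.inter_eq_left.2 (hZ.trans Set.inter_subset_left)⟩⟩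
  · rwa [Set.inter_eq_left.2 hO]
  · rwa [Set.inter_self] at h2

theorem dense_of_extAt {D : Set X} (h : ∀ x, ExtAt D x) : Dense D := by
  rw [dense_iff_inter_open]
  rintro O hO ⟨x, hx⟩
  obtain ⟨W, hW, hxW, h1, -⟩ := h x
  obtain ⟨y, ⟨hy1, -⟩, hy2⟩ := h1 (O ∩ W) (hO.inter hW) Set.inter_subset_right ⟨x, hx, hxW⟩
  exact ⟨y, hy1, hy2⟩

theorem comap_injective (j : C(E, X)) (h : Dense (Set.range j)) :
    Function.Injective (LocallyConstant.comap (Z := A) j) := by
  intro g g' hg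
  apply LocallyConstant.ext
  intro x
  have h1 : IsOpen (g ⁻¹' {g x} ∩ g' ⁻¹' {g' x}) :=
    (g.isLocallyConstant _).inter (g'.isLocallyConstant _)
  obtain ⟨_, ⟨hy1, hy2⟩, y, rfl⟩ := h.inter_open_nonempty _ h1 ⟨x, rfl, rfl⟩
  have h2 : g (j y) = g' (j y) := DFunLike.congr_fun hg y
  rw [← show g (j y) = g x from hy1, ← show g' (j y) = g' x from hy2, h2]

/-- Around every point a locally constant function on `D` is constant on the trace of a
neighbourhood. -/
theorem exists_nhd [Finite A] (j : C(E, X)) (hj : Topology.IsOpenEmbedding j) {x : X}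
    (h : ExtAt (Set.range j) x) (g : LocallyConstant E A) :
    ∃ (a : A) (N : Set X), IsOpen N ∧ x ∈ N ∧ ∀ e : E, j e ∈ N → g e = a := by
  obtain ⟨W, hW, hxW, hd, hext⟩ := h
  have hlev : ∀ a : A, ∃ Z' : Set X, Z' ⊆ W ∧ IsOpen Z' ∧ IsOpen (W \ Z') ∧
      Z' ∩ Set.range j = W ∩ j '' (g ⁻¹' {a}) := by
    intro a
    apply hext
    · exact Set.inter_subset_inter_right _ (Set.image_subset_range _ _)
    · exact hW.inter (hj.isOpenMap _ (g.isLocallyConstant _))
    · have : (W ∩ Set.range j) \ (W ∩ j '' (g ⁻¹' {a})) = W ∩ j '' (g ⁻¹' {a}ᶜ) := by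
        ext y
        constructor
        · rintro ⟨⟨hy, e, rfl⟩, hy'⟩
          exact ⟨hy, e, fun he => hy' ⟨hy, e, he, rfl⟩, rfl⟩
        · rintro ⟨hy, e, he, rfl⟩
          refine ⟨⟨hy, e, rfl⟩, ?_⟩
          rintro ⟨-, e', he', hee'⟩
          exact he (hj.injective hee' ▸ he')
      rw [this]
      exact hW.inter (hj.isOpenMap _ (g.isLocallyConstant _))
  choose Z hZW hZo hZc hZ using hlev
  have hx : ∃ a, x ∈ Z a := by
    by_contra hcon
    push Not at hcon
    have hO : IsOpen (⋂ a, (W \ Z a)) := isOpen_iInter_of_finite hZc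
    by_cases hA : Nonempty A
    · obtain ⟨y, hy, e, rfl⟩ := hd (⋂ a, (W \ Z a)) hO
        (fun y hy => (Set.mem_iInter.1 hy hA.some).1)
        ⟨x, Set.mem_iInter.2 fun a => ⟨hxW, hcon a⟩⟩
      have h1 := Set.mem_iInter.1 hy (g e)
      have h2 : j e ∈ W ∩ j '' (g ⁻¹' {g e}) := ⟨h1.1, e, rfl, rfl⟩
      rw [← hZ] at h2
      exact h1.2 h2.1
    · obtain ⟨y, hy, e, rfl⟩ := hd W hW subset_rfl ⟨x, hxW⟩
      exact hA ⟨g e⟩
  obtain ⟨a, ha⟩ := hx
  refine ⟨a, Z a, hZo a, ha, fun e he => ?_⟩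
  have h1 : j e ∈ Z a ∩ Set.range j := ⟨he, e, rfl⟩
  rw [hZ] at h1
  obtain ⟨-, e', he', hee'⟩ := h1
  rw [← hj.injective hee']
  exact he'

/-- If clopen sets extend locally across the complement of the image of `j`, then restriction along
`j` is bijective on locally constant functions with values in a finite set. -/
theorem comap_bijective [Finite A] (j : C(E, X)) (hj : Topology.IsOpenEmbedding j)
    (h : ∀ x, ExtAt (Set.range j) x) :
    Function.Bijective (LocallyConstant.comap (Z := A) j) := by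
  have hdense := dense_of_extAt h
  refine ⟨comap_injective j hdense, fun g => ?_⟩
  choose a N hN hxN hg using fun x => exists_nhd j hj (h x) g
  refine ⟨⟨a, ?_⟩, ?_⟩
  · rw [IsLocallyConstant.iff_exists_open]
    intro x
    refine ⟨N x, hN x, hxN x, fun y hy => ?_⟩
    obtain ⟨_, ⟨hz1, hz2⟩, e, rfl⟩ := hdense.inter_open_nonempty (N x ∩ N y) ((hN x).inter (hN y))
      ⟨y, hy, hxN y⟩
    rw [← hg x e hz1, ← hg y e hz2]
  · apply LocallyConstant.ext
    intro e
    exact (hg (j e) e (hxN (j e))).symm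

end Groth.Agent.Pi1.H404.TopExt
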