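import Groth.Agent.Pi1.H404.AlgCore
import Groth.Agent.Pi1.H404.TopExt
import Groth.Agent.Pi1.H404.Chart

/-!
# Clopen sets extend locally over a strict relative normal crossings divisor
-/

set_option autoImplicit false
universe u

open CategoryTheory CategoryTheory.Limits AlgebraicGeometry

namespace Groth.Agent.Pi1.H404.LocExt

open Groth.Agent.Pi1.H404

variable {X S : Scheme.{u}} {f : X ⟶ S} {r : ℕ} {φ : Fin r → Γ(X, ⊤)}

theorem mem_basicOpen_iff {B : CommRingCat.{u}} (j : Spec B ⟶ X) (a : Γ(X, ⊤)) (y : Spec B) :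
    j y ∈ X.basicOpen a ↔
      y ∈ PrimeSpectrum.basicOpen ((Scheme.ΓSpecIso B).hom (j.appTop a)) := by
  rw [← basicOpen_eq_of_affine', ← Scheme.preimage_basicOpen_top]
  rfl

/-- Transport of the extension property along an open embedding. -/
theorem extAt_of_isOpenEmbedding {Y Z : Type*} [TopologicalSpace Y] [TopologicalSpace Z]
    (j : Y → Z) (hj : Topology.IsOpenEmbedding j) (D : Set Z)
    (h1 : ∀ O : Set Y, IsOpen O → O.Nonempty → (O ∩ j ⁻¹' D).Nonempty)
    (h2 : ∀ T : Set Y, T ⊆ j ⁻¹' D → IsOpen T → IsOpen (j ⁻¹' D \ T) →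
      ∃ T' : Set Y, IsClopen T' ∧ T' ∩ j ⁻¹' D = T) (y : Y) : TopExt.ExtAt D (j y) := by
  refine ⟨Set.range j, hj.isOpen_range, ⟨y, rfl⟩, ?_, ?_⟩
  · rintro O hO hOj ⟨z, hz⟩
    obtain ⟨w, rfl⟩ := hOj hz
    obtain ⟨w', hw1, hw2⟩ := h1 (j ⁻¹' O) (hO.preimage hj.continuous) ⟨w, hz⟩
    exact ⟨j w', hw1, hw2⟩
  · intro T hT hTo hTc
    obtain ⟨T', hT'1, hT'2⟩ := h2 (j ⁻¹' T) (fun w hw => (hT hw).2)
      (hTo.preimage hj.continuous) (by
        have : j ⁻¹' D \ j ⁻¹' T = j ⁻¹' ((Set.range j ∩ D) \ T) := by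
          ext w
          simp
        rw [this]
        exact hTc.preimage hj.continuous)
    refine ⟨j '' T', Set.image_subset_range _ _, hj.isOpenMap _ hT'1.2, ?_, ?_⟩
    · have : Set.range j \ j '' T' = j '' T'ᶜ := by
        rw [Set.image_compl_eq_range_sdiff_image hj.injective]
      rw [this]
      exact hj.isOpenMap _ hT'1.1.isOpen_compl
    · ext z
      constructor
      · rintro ⟨⟨w, hw, rfl⟩, hz⟩
        have : w ∈ T' ∩ j ⁻¹' D := ⟨hw, hz⟩
        rw [hT'2] at this
        exact this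
      · intro hz
        obtain ⟨⟨w, rfl⟩, hzD⟩ := hT hz
        have : w ∈ T' ∩ j ⁻¹' D := by
          rw [hT'2]
          exact hz
        exact ⟨⟨w, this.1, rfl⟩, hzD⟩

/-- The complement of a strict relative normal crossings divisor has the clopen extension property
at every point. -/
theorem extAt (hD : SGA1t.IsRelSNC f φ) (x : X) :
    TopExt.ExtAt (SGA1t.compl φ : Set X) x := by
  classical
  by_cases hx : x ∈ SGA1t.compl φ
  · exact TopExt.ExtAt.of_mem (SGA1t.compl φ).2 hx
  · rw [Chart.mem_compl_iff] at hx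
    push Not at hx
    obtain ⟨k₀, hk₀⟩ := hx
    obtain ⟨A, B, i, j, d, ψ, e, hi, hj, hxj, he, hψ, hc, hφ, hu⟩ :=
      Chart.exists_chart hD x ⟨⟨k₀, hk₀⟩⟩
    let _ : Algebra (MvPolynomial (ULift.{u} (Fin d)) A) B := ψ.hom.toAlgebra
    have het : Algebra.Etale (MvPolynomial (ULift.{u} (Fin d)) A) B := hψ
    have : Fintype (SGA1t.vanishingAt φ x) := Fintype.ofFinite _
    let s : Finset (ULift.{u} (Fin d)) := Finset.univ.image (fun k => ULift.up (e k))
    have hpre : j ⁻¹' (SGA1t.compl φ : Set X) =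
        (PrimeSpectrum.basicOpen (AlgCore.ttB A s B) : Set (PrimeSpectrum B)) := by
      refine Set.ext fun (y : PrimeSpectrum B) => ?_
      have hyp : y.asIdeal.IsPrime := y.2
      have h1 : (y : Spec B) ∈ j ⁻¹' (SGA1t.compl φ : Set X) ↔
          ∀ k, y ∈ PrimeSpectrum.basicOpen ((Scheme.ΓSpecIso B).hom (j.appTop (φ k))) := by
        refine (Chart.mem_compl_iff (j y)).trans ?_
        exact forall_congr' fun k => mem_basicOpen_iff j (φ k) y
      have h2 : y ∈ (PrimeSpectrum.basicOpen (AlgCore.ttB A s B) : Set (PrimeSpectrum B)) ↔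
          ∀ k : SGA1t.vanishingAt φ x, ψ (MvPolynomial.X (ULift.up (e k))) ∉ y.asIdeal := by
        change AlgCore.ttB A s B ∉ y.asIdeal ↔ _
        rw [AlgCore.ttB, AlgCore.tt, map_prod, Ideal.IsPrime.prod_mem_iff]
        push Not
        constructor
        · intro h k
          exact h (ULift.up (e k)) (Finset.mem_image_of_mem _ (Finset.mem_univ k))
        · intro h l hl
          obtain ⟨k, -, rfl⟩ := Finset.mem_image.1 hl
          exact h k
      refine h1.trans (Iff.trans ?_ h2.symm)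
      constructor
      · intro h k
        rw [← hφ]
        exact h k.1
      · intro h k
        by_cases hk : x ∈ X.basicOpen (φ k)
        · exact fun h3 => y.2.ne_top (Ideal.eq_top_of_isUnit_mem _ h3 (hu k hk))
        · have h3 := h ⟨k, hk⟩
          have h4 := hφ ⟨k, hk⟩
          exact fun h5 => h3 (h4 ▸ h5)
    obtain ⟨y, rfl⟩ := hxj
    refine extAt_of_isOpenEmbedding j j.isOpenEmbedding _ ?_ ?_ y
    · intro O hO hne
      rw [hpre]
      exact AlgCore.exists_mem_basicOpen_inter (A := A) B s O hO hne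
    · intro T hT h3 h4
      rw [hpre] at hT h4 ⊢
      exact AlgCore.exists_clopen (A := A) B s T h3 h4 hT

end Groth.Agent.Pi1.H404.LocExt
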