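import Groth.Agent.Pi1.H404.Chart

/-!
# Strict relative normal crossings divisors are stable under étale pullback and base change
-/

set_option autoImplicit false
universe u

open CategoryTheory CategoryTheory.Limits AlgebraicGeometry

namespace Groth.Agent.Pi1.H404.RelSNCBC

open Groth.Agent.Pi1.H404

variable {X S X' S' : Scheme.{u}} {f : X ⟶ S} {r : ℕ} {φ : Fin r → Γ(X, ⊤)}

/-- The pulled back functions. -/
noncomputable abbrev pb (g : X' ⟶ X) (φ : Fin r → Γ(X, ⊤)) : Fin r → Γ(X', ⊤) :=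
  fun i => g.appTop (φ i)

theorem mem_basicOpen_pb (g : X' ⟶ X) (i : Fin r) (x : X') :
    x ∈ X'.basicOpen (pb g φ i) ↔ g x ∈ X.basicOpen (φ i) := by
  rw [← Scheme.preimage_basicOpen_top]
  rfl

theorem compl_pb (g : X' ⟶ X) : SGA1t.compl (pb g φ) = g ⁻¹ᵁ SGA1t.compl φ := by
  rw [SGA1t.compl, SGA1t.compl, Scheme.preimage_basicOpen_top, map_prod]

/-- Base change of a morphism to affine space given by functions. -/
theorem isPullback_homOfVector {n : Type u} {W P : Scheme.{u}} {a : W ⟶ S} {h : S' ⟶ S}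
    {p : P ⟶ W} {q : P ⟶ S'} (hP : IsPullback p q a h) (v : n → Γ(W, ⊤)) :
    IsPullback p (AffineSpace.homOfVector q (p.appTop ∘ v)) (AffineSpace.homOfVector a v)
      (AffineSpace.map n h) := by
  have h1 : AffineSpace.homOfVector q (p.appTop ∘ v) ≫ (𝔸(n; S') ↘ S') = q :=
    AffineSpace.homOfVector_over _ _
  have h2 : AffineSpace.homOfVector a v ≫ (𝔸(n; S) ↘ S) = a := AffineSpace.homOfVector_over _ _
  refine IsPullback.of_bot (v₂₁ := 𝔸(n; S') ↘ S') (v₂₂ := 𝔸(n; S) ↘ S) (h₃₁ := h) ?_ ?_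
    (AffineSpace.isPullback_map h)
  · rw [h1, h2]
    exact hP
  · rw [AffineSpace.comp_homOfVector, Chart.homOfVector_comp_map, hP.w]

/-- General form: a commutative square over `S' → S` with `X' → X ×_S S'` étale. -/
theorem isRelSNC_of_etale_lift (hD : SGA1t.IsRelSNC f φ) (f' : X' ⟶ S') (g : X' ⟶ X) (h : S' ⟶ S)
    (w : g ≫ f = f' ≫ h) (het : Etale (pullback.lift g f' w)) :
    SGA1t.IsRelSNC f' (pb g φ) := by
  intro x' hx'
  obtain ⟨⟨i₀, hi₀⟩⟩ := hx'
  rw [mem_basicOpen_pb] at hi₀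
  obtain ⟨W, hxW, d, v, e, he, hE, hv⟩ := hD (g x') ⟨⟨i₀, hi₀⟩⟩
  let W' : X'.Opens := g ⁻¹ᵁ W
  let g' : (W' : Scheme.{u}) ⟶ W := g ∣_ W
  have hg' : g' ≫ W.ι = W'.ι ≫ g := morphismRestrict_ι g W
  refine ⟨W', hxW, d, g'.appTop ∘ v, fun k => e ⟨k.1, fun hk => k.2 ((mem_basicOpen_pb _ _ _).2 hk)⟩,
    ?_, ?_, ?_⟩
  · intro k l hkl
    have h1 := congrArg (fun z : SGA1t.vanishingAt φ (g x') => z.1) (he hkl)
    exact Subtype.ext h1
  · let n : Type u := ULift.{u} (Fin d)
    let P := pullback W.ι (pullback.fst f h)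
    let p : P ⟶ W := pullback.fst W.ι (pullback.fst f h)
    let p₂ : P ⟶ pullback f h := pullback.snd W.ι (pullback.fst f h)
    have hP : IsPullback p (p₂ ≫ pullback.snd f h) (W.ι ≫ f) h :=
      (IsPullback.of_hasPullback W.ι (pullback.fst f h)).paste_vert (IsPullback.of_hasPullback f h)
    have hP2 := isPullback_homOfVector hP v
    have hE2 : Etale (AffineSpace.homOfVector (p₂ ≫ pullback.snd f h) (p.appTop ∘ v)) :=
      MorphismProperty.of_isPullback hP2 hE
    let q : (W' : Scheme.{u}) ⟶ P := pullback.lift g' (W'.ι ≫ pullback.lift g f' w) (by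
      rw [Category.assoc, pullback.lift_fst, hg'])
    have hq1 : q ≫ p = g' := pullback.lift_fst _ _ _
    have hq2 : q ≫ p₂ = W'.ι ≫ pullback.lift g f' w := pullback.lift_snd _ _ _
    have hq : Etale q := by
      have h3 : Etale (q ≫ p₂) := by
        rw [hq2]
        infer_instance
      exact Etale.of_comp q p₂
    have h4 : AffineSpace.homOfVector (W'.ι ≫ f') (g'.appTop ∘ v) =
        q ≫ AffineSpace.homOfVector (p₂ ≫ pullback.snd f h) (p.appTop ∘ v) := by
      rw [AffineSpace.comp_homOfVector]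
      congr 1
      · rw [← Category.assoc, hq2, Category.assoc, pullback.lift_snd]
      · rw [← hq1, Scheme.Hom.comp_appTop]
        rfl
    rw [h4]
    infer_instance
  · intro k
    have h5 := hv ⟨k.1, fun hk => k.2 ((mem_basicOpen_pb _ _ _).2 hk)⟩
    have h6 : (W.ι.appTop ≫ g'.appTop) (φ k.1) = (g.appTop ≫ W'.ι.appTop) (φ k.1) := by
      rw [← Scheme.Hom.comp_appTop, ← Scheme.Hom.comp_appTop, hg']
    refine (congrArg g'.appTop (h5.trans (Chart.ι_appTop_apply W (φ k.1)))).trans ?_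
    exact h6.trans (Chart.ι_appTop_apply W' (pb g φ k.1)).symm

/-- Pullback along an étale morphism. -/
theorem isRelSNC_comp (hD : SGA1t.IsRelSNC f φ) (g : X' ⟶ X) [Etale g] :
    SGA1t.IsRelSNC (g ≫ f) (pb g φ) := by
  have w : g ≫ f = (g ≫ f) ≫ 𝟙 S := (Category.comp_id _).symm
  refine isRelSNC_of_etale_lift hD (g ≫ f) g (𝟙 S) w ?_
  have h1 : pullback.lift g (g ≫ f) w ≫ pullback.fst f (𝟙 S) = g := pullback.lift_fst _ _ _
  have h2 : Etale (pullback.lift g (g ≫ f) w ≫ pullback.fst f (𝟙 S)) := by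
    rw [h1]
    infer_instance
  exact Etale.of_comp _ (pullback.fst f (𝟙 S))

/-- Base change. -/
theorem isRelSNC_baseChange (hD : SGA1t.IsRelSNC f φ) {f' : X' ⟶ S'} {g : X' ⟶ X} {h : S' ⟶ S}
    (hP : IsPullback g f' f h) : SGA1t.IsRelSNC f' (pb g φ) := by
  refine isRelSNC_of_etale_lift hD f' g h hP.w ?_
  have h1 : pullback.lift g f' hP.w = hP.isoPullback.hom := by
    apply pullback.hom_ext
    · rw [pullback.lift_fst, hP.isoPullback_hom_fst]
    · rw [pullback.lift_snd, hP.isoPullback_hom_snd]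
  rw [h1]
  infer_instance

end Groth.Agent.Pi1.H404.RelSNCBC
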