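import Groth.Agent.Pi1.H404.LocExt
import Groth.Agent.Pi1.H404.RelSNCBC
import Groth.Agent.Sga4B.ConstLC
import Mathlib.AlgebraicGeometry.PullbackCarrier

/-!
# The direct image of a finite constant sheaf from the complement of a strict relative normal
crossings divisor is constant

For `i : U ⟶ X` the inclusion of the complement of a strict normal crossings divisor relative to
`f : X ⟶ S` and a finite abelian group `M`, the unit `M_X ⟶ i_* i^* M_X` is an isomorphism.
-/

set_option autoImplicit false
universe u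

open CategoryTheory CategoryTheory.Limits AlgebraicGeometry Opposite

namespace Groth.Agent.Pi1.H404.UnitIso

open Groth.Agent.Pi1.H404 Groth.Agent.Sga4B.ConstLC

variable {X S : Scheme.{u}} {f : X ⟶ S} {r : ℕ} {φ : Fin r → Γ(X, ⊤)}

/-- Locally constant functions extend uniquely over the divisor, on every étale `V ⟶ X`. -/
theorem comap_bijective (hD : SGA1t.IsRelSNC f φ) {V : Scheme.{u}} (g : V ⟶ X) [Etale g]
    (A : Type*) [Finite A] :
    Function.Bijective (LocallyConstant.comap (Z := A)
      (cmap (pullback.fst g (SGA1t.compl φ).ι))) := by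
  have hr : Set.range (cmap (pullback.fst g (SGA1t.compl φ).ι)) =
      (SGA1t.compl (RelSNCBC.pb g φ) : Set V) := by
    rw [RelSNCBC.compl_pb]
    refine (Scheme.Pullback.range_fst g (SGA1t.compl φ).ι).trans ?_
    rw [Scheme.Opens.range_ι]
    rfl
  refine TopExt.comap_bijective _ (pullback.fst g (SGA1t.compl φ).ι).isOpenEmbedding ?_
  intro x
  rw [hr]
  exact LocExt.extAt (RelSNCBC.isRelSNC_comp hD g) x

theorem isIso_LCres_compl (hD : SGA1t.IsRelSNC f φ) (A : Type (u + 1)) [AddCommGroup A] [Finite A] :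
    IsIso (LCres (SGA1t.compl φ).ι A) :=
  isIso_LCres _ A fun V => comap_bijective hD V.hom A

/-- The unit `M_X ⟶ i_* i^* M_X` is an isomorphism. -/
theorem isIso_unit (hD : SGA1t.IsRelSNC f φ) (M : Type) [AddCommGroup M] [Finite M] :
    IsIso ((EtCoh.pullPushAdj (SGA1t.compl φ).ι).unit.app (EtCoh.const X M)) := by
  rw [isIso_unit_const_iff]
  exact isIso_LCres_compl hD _

/-- `i_* M_U ≅ M_X`. -/
theorem nonempty_iso (hD : SGA1t.IsRelSNC f φ) (M : Type) [AddCommGroup M] [Finite M] :
    Nonempty (EtCoh.const X M ≅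
      (EtCoh.push (SGA1t.compl φ).ι).obj (EtCoh.const (SGA1t.compl φ : Scheme.{u}) M)) := by
  have := isIso_unit hD M
  exact ⟨asIso ((EtCoh.pullPushAdj (SGA1t.compl φ).ι).unit.app (EtCoh.const X M)) ≪≫
    (EtCoh.push (SGA1t.compl φ).ι).mapIso (pullConstIso (SGA1t.compl φ).ι M)⟩

end Groth.Agent.Pi1.H404.UnitIso
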